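import Cfsg.Agent.N2.Tri.PEng
import Cfsg.Agent.N2.Tool

/-!
# N2 (S3519), sporadic groups: commuting central elements of Sylow subgroups in a permutation model (helper44)
-/

set_option autoImplicit false
set_option linter.unusedSectionVars false

namespace Cfsg.Agent.N2.Sp2.Md

open Subgroup Cfsg.Agent.SB.Spor Cfsg.Agent.N2.Tg.PE

/-- sequences -/
abbrev Sq : Type := List (ℕ × ℕ × ℕ)

/-! ### the statements -/

/-- commuting conjugates of a `2`-central involution -/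
def Two (G : Type*) [Group G] (F : ℕ) : Prop := ∃ z : G, orderOf z = 2 ∧ 2 ^ F ∣ cn z ∧ ∀ E : Set G, E.Nonempty →
  (∀ x ∈ E, IsConj z x) → (∀ x ∈ E, ∀ y ∈ E, x * y = y * x) → ∃ g : G, g ^ 60 ≠ 1 ∧ ∀ u ∈ closure E, g * u * g⁻¹ ∈ closure E

/-- commuting conjugates of a `3`-central element -/
def Three (G : Type*) [Group G] (F r : ℕ) : Prop := ∃ z : G, orderOf z = 3 ∧ 3 ^ F ∣ cn z ∧ r ∣ cn z ∧
  ∀ Y : Subgroup G, IsPGroup 3 Y → (∀ c, (∀ y ∈ Y, c * y = y * c) → c ∈ Y) → (∃ x, IsConj z x ∧ ∀ y ∈ Y, x * y = y * x) ∧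
    ∃ g : G, g ^ 60 ≠ 1 ∧ ((∀ y ∈ Y, g * y * g⁻¹ ∈ Y) ∨ ∀ x, IsConj z x → (∀ y ∈ Y, x * y = y * x) → g * x = x * g)

theorem cn_map {G K : Type*} [Group G] [Group K] (e : K ≃* G) (x : K) : cn (e x) = cn x :=
  (Nat.card_congr (e.toEquiv.subtypeEquiv fun y => by
    simp only [mem_centralizer_singleton_iff, MulEquiv.toEquiv_eq_coe, EquivLike.coe_coe, ← map_mul, e.apply_eq_iff_eq])).symm

theorem conj_map {G K : Type*} [Group G] [Group K] (e : K ≃* G) {x y : K} : IsConj (e x) (e y) ↔ IsConj x y :=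
  ⟨fun h => by simpa using e.symm.toMonoidHom.map_isConj h, e.toMonoidHom.map_isConj⟩

theorem Two.congr {G K : Type*} [Group G] [Group K] {F : ℕ} (h : Two G F) (e : K ≃* G) : Two K F := by
  obtain ⟨z, h1, h2, h3⟩ := h
  obtain ⟨z, rfl⟩ := e.surjective z
  refine ⟨z, e.orderOf_eq z ▸ h1, cn_map e z ▸ h2, fun E k1 k2 k3 => ?_⟩
  obtain ⟨g, k4, k5⟩ := h3 (e.toMonoidHom '' E) (k1.image _) (by
    rintro _ ⟨x, hx, rfl⟩
    exact (conj_map e).2 (k2 x hx)) (by
    rintro _ ⟨x, hx, rfl⟩ _ ⟨y, hy, rfl⟩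
    rw [← map_mul, ← map_mul, k3 x hx y hy])
  obtain ⟨g, rfl⟩ := e.surjective g
  refine ⟨g, fun k => k4 (by rw [← map_pow, k, map_one]), fun u hu => ?_⟩
  rw [← MonoidHom.map_closure] at k5
  obtain ⟨v, k6, k7⟩ := k5 _ ⟨u, hu, rfl⟩
  exact e.injective (k7.trans (by simp) : e v = e (g * u * g⁻¹)) ▸ k6

theorem Three.congr {G K : Type*} [Group G] [Group K] {F r : ℕ} (h : Three G F r) (e : K ≃* G) : Three K F r := by
  obtain ⟨z, h1, h2, h3, h4⟩ := h
  obtain ⟨z, rfl⟩ := e.surjective z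
  refine ⟨z, e.orderOf_eq z ▸ h1, cn_map e z ▸ h2, cn_map e z ▸ h3, fun Y k1 k2 => ?_⟩
  obtain ⟨⟨x, k3, k4⟩, g, k5, k6⟩ := h4 (Y.map e.toMonoidHom) (k1.map _) fun c hc => by
    obtain ⟨c, rfl⟩ := e.surjective c
    exact ⟨c, k2 c fun y hy => e.injective (by simpa using hc _ ⟨y, hy, rfl⟩), rfl⟩
  obtain ⟨x, rfl⟩ := e.surjective x
  obtain ⟨g, rfl⟩ := e.surjective g
  refine ⟨⟨x, (conj_map e).1 k3, fun y hy => e.injective (by simpa using k4 _ ⟨y, hy, rfl⟩)⟩, g,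
    fun k => k5 (by rw [← map_pow, k, map_one]), k6.imp (fun k y hy => ?_) fun k u hu hc => e.injective ?_⟩
  · obtain ⟨v, k6, k7⟩ := k _ ⟨y, hy, rfl⟩
    exact e.injective (k7.trans (by simp) : e v = e (g * y * g⁻¹)) ▸ k6
  · simpa using k _ ((conj_map e).2 hu) (by
      rintro _ ⟨y, hy, rfl⟩
      simpa using congrArg e (hc y hy))

variable {G : Type*} [Group G] [Finite G] {n : ℕ} {M : PM G n} {lk : ℕ → ℕ → ℕ} {mk : (ℕ → ℕ) → ℕ}
  {ver : (ℕ → ℕ) → ℕ → (ℕ → ℕ) → Bool} {B : List ℕ}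

theorem conj_into {p F : ℕ} (hp : p.Prime) {S X : Subgroup G} (hc : Nat.card S = p ^ F)
    (hN : ¬ p ^ (F + 1) ∣ Nat.card G) (hX : IsPGroup p X) : ∃ c, ∀ x ∈ X, c * x * c⁻¹ ∈ S := by
  have := Fact.mk hp
  obtain ⟨Q, hQ⟩ := hX.exists_le_sylow
  obtain ⟨c, h1⟩ := MulAction.exists_smul_eq G Q ((IsPGroup.of_card hc).toSylow fun h => hN (by
    rw [← S.card_mul_index, hc, pow_succ]
    exact Nat.mul_dvd_mul_left _ h))
  refine ⟨c, fun y hy => ?_⟩
  have h2 : (MulAut.conj c) • y ∈ ((c • Q : Sylow p G) : Subgroup G) := smul_mem_pointwise_smul _ _ _ (hQ hy)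
  rw [h1] at h2
  exact h2

/-! ### fixed points -/

/-- the number of fixed points -/
noncomputable def fixc (f : ℕ → ℕ) (n : ℕ) : ℕ → ℕ :=
  Nat.rec (fun c => c) (fun i ih c => cnd (Nat.beq (f i) i) (frc (Nat.succ c) ih) (ih c)) n

theorem fixc_eq (f : ℕ → ℕ) (n : ℕ) : ∀ c, fixc f n c = c + ((Finset.range n).filter fun i => f i = i).card := by
  induction n with
  | zero => exact fun _ => rfl
  | succ i ih =>
    intro c
    have e : fixc f (i + 1) c = cnd (Nat.beq (f i) i) (frc (c + 1) (fixc f i)) (fixc f i c) := rfl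
    rw [e, Finset.range_add_one, Finset.filter_insert, frc_eq]
    split_ifs with h
    · rw [h, Nat.beq_refl, cnd_true, ih, Finset.card_insert_of_notMem (by simp)]
      omega
    · rw [Bool.eq_false_iff.2 fun k => h (Nat.eq_of_beq_eq_true k), cnd_false, ih]

theorem fix_conj {g h : G} {f f' : ℕ → ℕ} (h1 : M.Rf g f) (h2 : M.Rf h f') (hc : IsConj g h) :
    fixc f n 0 = fixc f' n 0 := by
  have key : ∀ {g h : G} {f f' : ℕ → ℕ}, M.Rf g f → M.Rf h f' → IsConj g h → fixc f n 0 ≤ fixc f' n 0 := by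
    intro g h f f' h1 h2 hc
    obtain ⟨c, rfl⟩ := isConj_iff.1 hc
    rw [fixc_eq, fixc_eq, zero_add, zero_add]
    refine Finset.card_le_card_of_injOn (M.act c) (fun i hi => ?_) fun i hi j hj e => ?_
    · simp only [Finset.coe_filter, Finset.mem_range, Set.mem_ofPred_eq] at hi ⊢
      refine ⟨M.lt _ _ hi.1, ?_⟩
      rw [← h2 _ (M.lt _ _ hi.1), ← M.mul _ _ _ hi.1, inv_mul_cancel_right, M.mul _ _ _ hi.1, h1 _ hi.1, hi.2]
    · simp only [Finset.coe_filter, Finset.mem_range, Set.mem_ofPred_eq] at hi hj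
      rw [← PM.act_inv (M := M) c hi.1, e, PM.act_inv c hj.1]
  exact le_antisymm (key h1 h2 hc) (key h2 h1 hc.symm)

/-! ### the Sylow subgroup -/

theorem evc_zero (gs : Sq) : evc M lk gs 0 = 1 := by
  induction gs with
  | nil => rfl
  | cons g gs ih =>
    show evc M lk gs (0 / g.1) * M.el lk g.2.1 ^ (0 % g.1) = 1
    rw [Nat.zero_div, Nat.zero_mod, ih, pow_zero, one_mul]

theorem exists_evc {A R : Sq} (h : PCok M lk (A ++ R)) {y : G} (hy : y ∈ Mg M lk (A ++ R)) :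
    ∃ k < prodO R, ∃ c < prodO A, y = evc M lk R k * evc M lk A c := by
  obtain ⟨m, c, h1, h2, -, rfl⟩ := (h.nf y hy).append
  rw [← List.append_nil R] at h1
  obtain ⟨_, k, rfl, h3, -, rfl⟩ := h1.append
  exact ⟨k, h3, c, h2, by rw [one_mul]⟩

/-- commuting functions -/
noncomputable def cmB (B : List ℕ) (f g : ℕ → ℕ) : Bool := eqB B (fun q => f (g q)) fun q => g (f q)

/-- `g x = y g` -/
noncomputable def cjB (B : List ℕ) (g x y : ℕ → ℕ) : Bool := eqB B (fun q => g (x q)) fun q => y (g q)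

theorem cj_of (hB : M.Base B) {g x y : G} {fg fx fy : ℕ → ℕ} (h1 : M.Rf g fg) (h2 : M.Rf x fx) (h3 : M.Rf y fy)
    (h : cjB B fg fx fy = true) : g * x * g⁻¹ = y :=
  mul_inv_eq_iff_eq_mul.2 (hB.eq (h1.mul h2) (h3.mul h1) h)

theorem cm_iff (hB : M.Base B) {g x : G} {fg fx : ℕ → ℕ} (h1 : M.Rf g fg) (h2 : M.Rf x fx) :
    cmB B fg fx = true ↔ g * x = x * g :=
  ⟨hB.eq (h1.mul h2) (h2.mul h1), fun h => hB.eqB_of_eq (h1.mul h2) (h ▸ h2.mul h1)⟩

/-- an element with `y ^ p = 1` is in the list `L` or conjugate to a member of `cls` -/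
noncomputable def leaf (lk : ℕ → ℕ → ℕ) (B : List ℕ) (p : ℕ) (gs : Sq) (L cls : List ℕ) (rdf : ℕ → ℕ) (f : ℕ → ℕ) (s : ℕ) : ℕ :=
  cnd (eqB B (itr f p) idf) (frc (rdf s) fun sym => frc (Nat.land sym (nat_lit 127)) fun i =>
    Nat.rec (getK L (nat_lit 0) (fun c => dec lk (fun fr => cnd (eqB B f fr) (Nat.succ s) (nat_lit 0)) gs c idf) i)
      (fun m _ => getK cls (nat_lit 0) (fun c => dec lk (fun fr => dec lk (fun fm =>
        cnd (cjB B fm f fr) (Nat.succ s) (nat_lit 0)) gs m idf) gs c idf) i) (Nat.shiftRight sym (nat_lit 7))) s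

theorem leaf_spec (hB : M.Base B) {p : ℕ} {gs : Sq} (hg : GsIn M lk gs) {L cls : List ℕ} {z : G} (hz : z ^ p = 1)
    (hc : ∀ c ∈ cls, ¬ IsConj z (evc M lk gs c)) (rdf : ℕ → ℕ) (y : G) (f : ℕ → ℕ) (s : ℕ) (hf : M.Rf y f)
    (h : leaf lk B p gs L cls rdf f s ≠ 0) : IsConj z y → ∃ c ∈ L, y = evc M lk gs c := by
  intro hy
  have h0 : y ^ p = 1 := by
    obtain ⟨c, rfl⟩ := isConj_iff.1 hy
    rw [conj_pow, hz, mul_one, mul_inv_cancel]
  unfold leaf at h
  rw [hB.eqB_of_eq (hf.pow p) (h0 ▸ PM.rf_one), cnd_true, frc_eq, frc_eq] at h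
  generalize Nat.shiftRight (rdf s) (nat_lit 7) = m at h
  generalize Nat.land (rdf s) (nat_lit 127) = i at h
  cases m with
  | zero =>
    rcases getK_cases L (nat_lit 0) (fun c => dec lk (fun fr => cnd (eqB B f fr) (Nat.succ s) (nat_lit 0)) gs c idf) i with
      h2 | ⟨c, hc, h2⟩
    · exact absurd h2 h
    obtain ⟨fr, h3, h4⟩ := dec_one (β := ℕ) hg c
    rw [h4] at h2
    exact ⟨c, hc, hB.eq hf h3 (cnd_ne fun k => h (h2.trans k)).1⟩
  | succ m =>
    rcases getK_cases cls (nat_lit 0) (fun c => dec lk (fun fr => dec lk (fun fm =>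
        cnd (cjB B fm f fr) (Nat.succ s) (nat_lit 0)) gs m idf) gs c idf) i with h2 | ⟨c, hc', h2⟩
    · exact absurd h2 h
    obtain ⟨fr, h3, h4⟩ := dec_one (β := ℕ) hg c
    obtain ⟨fm, h5, h6⟩ := dec_one (β := ℕ) hg m
    rw [h4, h6] at h2
    exact absurd (hy.trans (isConj_iff.2 ⟨_, cj_of hB h5 hf h3 (cnd_ne fun k => h (h2.trans k)).1⟩)) (hc c hc')

/-- data for a Sylow subgroup -/
structure Dt where
  p : ℕ
  F : ℕ
  cR : List ℕ
  cA : List ℕ
  rp : ℕ → ℕ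
  lev : List (ℕ × List ℕ)
  z : ℕ
  L : List ℕ
  cls : List ℕ
  rc : ℕ → ℕ

/-- the check of a Sylow subgroup -/
noncomputable def syl (lk : ℕ → ℕ → ℕ) (n : ℕ) (B : List ℕ) (d : Dt) (gs : Sq) (fz : ℕ → ℕ) : Bool :=
  cnd (Nat.blt (nat_lit 0) (pcChk lk B d.rp gs (nat_lit 1)))
    (cnd (Nat.ble (d.p ^ d.F) (chain lk (gs.map fun g => g.2.1) n (fun _ => true) d.lev []))
      (cnd (Nat.beq (prodO gs) (d.p ^ d.F)) (cnd (eqB B fz idf) false (cnd (eqB B (itr fz d.p) idf)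
        (cnd (allL gs fun g => cmB B (lk g.2.1) fz)
          (cnd (frc (fixc fz n 0) fun a => allL d.cls fun c => dec lk (fun f => cnd (Nat.beq a (fixc f n 0)) false true) gs c idf)
            (Nat.blt (nat_lit 0) (enum lk (leaf lk B d.p gs d.L d.cls d.rc) gs idf (nat_lit 1))) false) false) false)) false)
      false) false

/-- what the check gives -/
structure Sy (M : PM G n) (lk : ℕ → ℕ → ℕ) (d : Dt) (gs : Sq) (z : G) : Prop where
  pc : PCok M lk gs
  card : Nat.card (Mg M lk gs) = d.p ^ d.F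
  oz : orderOf z = d.p
  cz : Mg M lk gs ≤ centralizer {z}
  cov : ∀ y ∈ Mg M lk gs, IsConj z y → ∃ c ∈ d.L, y = evc M lk gs c

theorem cnd_not {c t : Bool} (h : cnd c false t = true) : c = false ∧ t = true := by
  cases c
  · exact ⟨rfl, h⟩
  · exact absurd h (by simp [cnd_true])

theorem syl_spec (hB : M.Base B) {d : Dt} (hp : d.p.Prime) {gs : Sq} (hg : GsIn M lk gs) {z : G} {fz : ℕ → ℕ}
    (hz : M.Rf z fz) (h : syl lk n B d gs fz = true) : Sy M lk d gs z := by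
  have := Fact.mk hp
  obtain ⟨h1, h⟩ := cnd_and h
  obtain ⟨h2, h⟩ := cnd_and h
  obtain ⟨h3, h⟩ := cnd_and h
  obtain ⟨h4, h⟩ := cnd_not h
  obtain ⟨h5, h⟩ := cnd_and h
  obtain ⟨h6, h⟩ := cnd_and h
  obtain ⟨h7, h⟩ := cnd_and h
  have h8 := pc_of_chk hB hg h1
  have h9 : z ^ d.p = 1 := hB.eq (hz.pow _) PM.rf_one h5
  rw [frc_eq] at h7
  refine ⟨h8, le_antisymm (Nat.eq_of_beq_eq_true h3 ▸ h8.card_le) (Mg_ge hg rfl h2), orderOf_eq_prime h9 (hB.ne_one hz h4),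
    (closure_le _).2 ?_, fun y hy => ?_⟩
  · rintro _ ⟨g, k, rfl⟩
    exact mem_centralizer_singleton_iff.2 ((cm_iff hB (hg g k).rf hz).1 (of_allL h6 g k))
  · simpa using enum_spec (leaf_spec hB hg h9 (fun c hc k => by
      obtain ⟨f, k1, k2⟩ := dec_one (β := Bool) hg c
      have k3 := of_allL h7 c hc
      rw [k2, fix_conj hz k1 k, Nat.beq_refl] at k3
      exact absurd k3 (by simp [cnd_true])) d.rc) hg 1 idf _ PM.rf_one (ne_of_blt h) y (h8.nf y hy)

/-- the sequence of the first tables -/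
noncomputable def tri (p : ℕ) (tl : Sq) (c : List ℕ) : List ℕ → (Sq → Bool) → Bool :=
  List.rec (fun _ κ => κ tl) (fun _ _ ih E κ => List.rec false (fun t E' _ => ih E' fun l => κ ((p, t, nat_lit 0) :: l)) E) c

theorem tri_spec (p : ℕ) (tl : Sq) (c : List ℕ) : ∀ (E : List ℕ) (κ : Sq → Bool), tri p tl c E κ = true →
    κ (((E.take c.length).map fun t => (p, t, 0)) ++ tl) = true := by
  induction c with
  | nil => exact fun _ _ h => h
  | cons a c ih =>
    intro E κ h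
    cases E with
    | nil => cases h
    | cons t E => exact ih E _ h

/-- build the tables -/
noncomputable def setup (lk : ℕ → ℕ → ℕ) (mk : (ℕ → ℕ) → ℕ) (n : ℕ) (B E0 : List ℕ) (d : Dt)
    (κ : List ℕ → Sq → Sq → Sq → (ℕ → ℕ) → Bool) : Bool :=
  ext lk mk d.cR E0 fun E1 => tri d.p [] d.cR E1 fun R => ext lk mk d.cA E1 fun E => tri d.p [] d.cA E fun A =>
    tri d.p R d.cA E fun gs => dec lk (fun f => frc (mk f) fun t => cnd (syl lk n B d gs (lk t)) (κ E A R gs (lk t)) false)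
      gs d.z idf

theorem setup_spec (hT : M.Tab lk mk ver) (hB : M.Base B) {E0 : List ℕ} (hE : AllIn M lk E0) {d : Dt} (hp : d.p.Prime)
    {κ : List ℕ → Sq → Sq → Sq → (ℕ → ℕ) → Bool} (h : setup lk mk n B E0 d κ = true) :
    ∃ E A R z fz, AllIn M lk E ∧ GsIn M lk (A ++ R) ∧ M.Rf z fz ∧ Sy M lk d (A ++ R) z ∧ κ E A R (A ++ R) fz = true := by
  obtain ⟨E1, h1, h⟩ := ext_spec hT _ _ _ hE.top h
  replace h := tri_spec _ _ _ _ _ h
  obtain ⟨E, h2, h⟩ := ext_spec hT _ _ _ h1 h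
  replace h := tri_spec _ _ _ _ _ (tri_spec _ _ _ _ _ h)
  have key : ∀ {E : List ℕ}, (∀ t ∈ E, ∃ g ∈ (⊤ : Subgroup G), M.Rf g (lk t)) → ∀ a,
      GsIn M lk ((E.take a).map fun t => (d.p, t, 0)) := fun hE a g hg => by
    obtain ⟨t, ht, rfl⟩ := List.mem_map.1 hg
    obtain ⟨g, -, k⟩ := hE t (List.mem_of_mem_take ht)
    exact ⟨g, k⟩
  rw [List.append_nil, List.append_nil] at h
  have h3 : GsIn M lk (((E.take d.cA.length).map fun t => (d.p, t, 0)) ++ (E1.take d.cR.length).map fun t => (d.p, t, 0)) :=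
    fun g hg => (List.mem_append.1 hg).elim (key h2 _ g) (key h1 _ g)
  obtain ⟨f, h4, h5⟩ := dec_one (β := Bool) h3 d.z
  rw [h5, frc_eq] at h
  have h6 := hT.mk_spec _ _ h4
  exact ⟨E, _, _, _, _, fun t ht => (h2 t ht).imp fun _ k => k.2, h3, h6, syl_spec hB hp h3 h6 (cnd_and h).1, (cnd_and h).2⟩

/-- some member of a list -/
noncomputable def anyL {α : Type} (L : List α) (p : α → Bool) : Bool := List.rec false (fun a _ ih => cnd (p a) true ih) L

theorem of_anyL {α : Type} {L : List α} {p : α → Bool} (h : anyL L p = true) : ∃ a ∈ L, p a = true := by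
  induction L with
  | nil => cases h
  | cons a L ih =>
    have e : cnd (p a) true (anyL L p) = true := h
    cases k : p a
    · rw [k] at e
      exact (ih e).imp fun _ k => ⟨List.mem_cons_of_mem _ k.1, k.2⟩
    · exact ⟨a, List.mem_cons_self, k⟩

theorem cnd_or {c t : Bool} (h : cnd c true t = true) : c = true ∨ t = true := by
  cases c
  exacts [Or.inr h, Or.inl rfl]

theorem cnd_of {c t : Bool} (h : c = true → t = true) : cnd c t true = true := by
  cases c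
  exacts [rfl, h rfl]

theorem allN_of {n : ℕ} {p : ℕ → Bool} (h : ∀ i < n, p i = true) : allN n p = true := by
  induction n with
  | zero => rfl
  | succ i ih =>
    show cnd (p i) (allN i p) false = true
    rw [h i i.lt_succ_self]
    exact ih fun j hj => h j (hj.trans i.lt_succ_self)

theorem bad_of (hB : M.Base B) {g : G} {f : ℕ → ℕ} (h : M.Rf g f) (e : eqB B (itr f 60) idf = false) (c : G) :
    (c⁻¹ * g * c) ^ 60 ≠ 1 := fun k => hB.ne_one (h.pow 60) e (by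
  have h1 := conj_pow (a := c⁻¹) (b := g) (i := 60)
  rw [inv_inv, k] at h1
  simpa [mul_assoc, eq_inv_mul_iff_mul_eq] using h1)

/-! ### the prime three -/

/-- the check -/
noncomputable def chk3 (lk : ℕ → ℕ → ℕ) (B L : List ℕ) (g y r : ℕ) (E : List ℕ) (A R gs : Sq) (fz : ℕ → ℕ) : Bool :=
  cnd (decF lk E (fun f => cnd (eqB B f idf) false (cnd (eqB B (itr f r) idf) (cmB B f fz) false)) (nat_lit 200) y idf)
    (frc (prodO A) fun a => frc (prodO R) fun r => dec lk (fun fg => cnd (eqB B (itr fg 60) idf) false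
      (cnd (allL R fun t => cnd (allL R fun u => cmB B (lk t.2.1) (lk u.2.1))
        (anyN r fun k => dec lk (fun w => cjB B fg (lk t.2.1) w) R k idf) false)
      (allL L fun c => dec lk (fun f => cnd (cmB B fg f) true (dec lk (fun w => cnd (eqB B f w)
        (allN (Nat.pred a) fun j => dec lk (fun h => cnd (cmB B h f) false true) A (Nat.succ j) idf) false) R
          (Nat.div c a) idf)) gs c idf) false)) gs g idf) false

theorem three_of (hT : M.Tab lk mk ver) (hB : M.Base B) {E0 : List ℕ} (hE : AllIn M lk E0) {d : Dt} (hp : d.p = 3)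
    (hN : ¬ 3 ^ (d.F + 1) ∣ Nat.card G) {g y r : ℕ} (hr : r.Prime)
    (h : setup lk mk n B E0 d (chk3 lk B d.L g y r) = true) : Three G d.F r := by
  obtain ⟨E, A, R, z, fz, hE, hg, hz, S, h⟩ := setup_spec hT hB hE (hp ▸ Nat.prime_three) h
  have hA : GsIn M lk A := fun g k => hg g (List.mem_append_left _ k)
  have hR : GsIn M lk R := fun g k => hg g (List.mem_append_right _ k)
  obtain ⟨h0, h⟩ := cnd_and h
  have hy : r ∣ cn z := by
    have := Fact.mk hr
    obtain ⟨a, -, f, l3, l4⟩ := decF_spec hE.top (fun f => cnd (eqB B f idf) false (cnd (eqB B (itr f r) idf) (cmB B f fz) false))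
      (nat_lit 200) y 1 idf (mem_top _) PM.rf_one
    obtain ⟨l5, l6⟩ := cnd_not (l4.symm.trans h0)
    rw [← orderOf_eq_prime (hB.eq (l3.pow r) PM.rf_one (cnd_and l6).1) (hB.ne_one l3 l5)]
    exact orderOf_dvd_natCard _ (mem_centralizer_singleton_iff.2 ((cm_iff hB l3 hz).1 (cnd_and l6).2))
  obtain ⟨fg, h1, h2⟩ := dec_one (β := Bool) hg g
  rw [frc_eq, frc_eq, h2] at h
  obtain ⟨h3, h⟩ := cnd_not h
  obtain ⟨h4, h⟩ := cnd_and h
  have h5 : ∀ a ∈ Mg M lk R, ∀ b ∈ Mg M lk R, a * b = b * a := fun a ha b hb =>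
    mem_centralizer_iff.1 (closure_le_centralizer_centralizer _ hb) a ((closure_le _).2 (by
      rintro _ ⟨t, k, rfl⟩ _ ⟨u, k', rfl⟩
      exact (cm_iff hB (hR u k').rf (hR t k).rf).1 (of_allL (cnd_and (of_allL h4 u k')).1 t k)) ha)
  have h6 : Mg M lk R ≤ (Mg M lk R).comap (MulAut.conj (evc M lk (A ++ R) g)).toMonoidHom := (closure_le _).2 (by
    rintro _ ⟨t, k, rfl⟩
    obtain ⟨i, hi⟩ := of_anyN (cnd_and (of_allL h4 t k)).2
    obtain ⟨w, k1, k2⟩ := dec_one (β := Bool) hR i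
    rw [k2] at hi
    exact mem_comap.2 (((cj_of hB h1 (hR t k).rf k1 hi).symm ▸ evc_mem R i : _ * _ * _ ∈ Mg M lk R)))
  have h7 := S.card
  rw [hp] at h7
  refine ⟨z, S.oz.trans hp, h7 ▸ card_dvd_of_le S.cz, hy, fun Y hY h9 => ?_⟩
  obtain ⟨c, k2⟩ := conj_into Nat.prime_three h7 hN hY
  refine ⟨⟨c⁻¹ * z * c⁻¹⁻¹, isConj_iff.2 ⟨_, rfl⟩, fun u hu => ?_⟩, _, bad_of hB h1 h3 c, or_iff_not_imp_right.2 fun k1 => ?_⟩
  · calc _ = c⁻¹ * (z * (c * u * c⁻¹)) * c := by group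
      _ = _ := by rw [← mem_centralizer_singleton_iff.1 (S.cz (k2 u hu))]; group
  push Not at k1
  obtain ⟨x, h10, h12, h11⟩ := k1
  obtain ⟨e, k4, k5⟩ := S.cov _ (k2 x (h9 x h12)) (h10.trans (isConj_iff.2 ⟨c, rfl⟩))
  obtain ⟨f, k6, k7⟩ := dec_one (β := Bool) hg e
  have k8 := of_allL h e k4
  rw [k7] at k8
  rw [← k5] at k6
  rcases cnd_or k8 with k8 | k8
  · refine absurd ?_ h11
    have k9 := (cm_iff hB h1 k6).1 k8
    generalize evc M lk (A ++ R) g = b at k9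
    calc _ = c⁻¹ * (b * (c * x * c⁻¹)) * c := by group
      _ = _ := by rw [k9]; group
  obtain ⟨w, k9, k10⟩ := dec_one (β := Bool) hR (Nat.div e (prodO A))
  rw [k10] at k8
  obtain ⟨k11, k12⟩ := cnd_and k8
  have k13 : c * x * c⁻¹ ∈ Mg M lk R := hB.eq k6 k9 k11 ▸ evc_mem R _
  have k14 : ∀ y ∈ Y, c * y * c⁻¹ ∈ Mg M lk R := fun y hy => by
    obtain ⟨i, -, j, l1, l2⟩ := exists_evc S.pc (k2 y hy)
    cases j with
    | zero => rw [l2, evc_zero, mul_one]; exact evc_mem R i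
    | succ j =>
      obtain ⟨u, l3, l4⟩ := dec_one (β := Bool) hA (Nat.succ j)
      have l5 := of_allN k12 j (Nat.lt_pred_iff.2 l1)
      rw [l4, (cm_iff hB l3 k6).2 (mul_left_cancel (a := evc M lk R i) (by
        rw [← mul_assoc (evc M lk R i), ← mul_assoc (evc M lk R i), h5 _ (evc_mem R i) _ k13,
          mul_assoc _ (evc M lk R i), ← l2, conj_mul, conj_mul, h12 y hy]))] at l5
      exact absurd l5 (by simp [cnd_true])
  refine fun y hy => h9 _ fun u hu => ?_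
  have l1 := h5 _ (h6 (k14 y hy)) _ (k14 u hu)
  generalize evc M lk (A ++ R) g = b at l1
  change b * (c * y * c⁻¹) * b⁻¹ * _ = _ * (b * (c * y * c⁻¹) * b⁻¹) at l1
  calc _ = c⁻¹ * (b * (c * y * c⁻¹) * b⁻¹ * (c * u * c⁻¹)) * c := by group
    _ = _ := by rw [l1]; group

/-! ### the prime two -/

/-- a bit -/
noncomputable def bt (m i : ℕ) : Bool := Nat.beq (Nat.land (nat_lit 1) (Nat.shiftRight m i)) (nat_lit 1)

theorem bt_eq (m i : ℕ) : bt m i = m.testBit i := by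
  show Nat.beq (1 &&& (m >>> i)) 1 = _
  rw [Nat.testBit, Nat.one_and_eq_mod_two]
  rcases Nat.mod_two_eq_zero_or_one (m >>> i) with h | h <;> rw [h] <;> rfl

/-- the members of `L` which commute with `f` -/
noncomputable def nbr (lk : ℕ → ℕ → ℕ) (B : List ℕ) (gs : Sq) (f : ℕ → ℕ) (L : List ℕ) : ℕ → ℕ :=
  List.rec (fun m => m) (fun c _ ih m => dec lk (fun h => cnd (cmB B f h)
    (frc (Nat.lor m (Nat.shiftLeft (nat_lit 1) c)) ih) (ih m)) gs c idf) L

theorem nbr_spec (hB : M.Base B) {gs : Sq} (hg : GsIn M lk gs) {x : G} {f : ℕ → ℕ} (hf : M.Rf x f) (L : List ℕ) :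
    ∀ m c, (m.testBit c = true ∨ (c ∈ L ∧ x * evc M lk gs c = evc M lk gs c * x)) → (nbr lk B gs f L m).testBit c = true := by
  induction L with
  | nil => exact fun m c h => h.resolve_right fun k => absurd k.1 List.not_mem_nil
  | cons a L ih =>
    intro m c h
    obtain ⟨u, h1, h2⟩ := dec_one (β := ℕ) hg a
    have e : nbr lk B gs f (a :: L) m = cnd (cmB B f u) (frc (m ||| (1 <<< a)) (nbr lk B gs f L)) (nbr lk B gs f L m) := h2 _
    rw [e, frc_eq]
    cases k : cmB B f u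
    · refine ih m c (h.imp id fun h3 => ⟨(List.mem_cons.1 h3.1).resolve_left fun e => ?_, h3.2⟩)
      rw [(cm_iff hB hf h1).2 (e ▸ h3.2)] at k
      cases k
    · refine ih _ c ?_
      rw [Nat.testBit_or, Nat.one_shiftLeft]
      rcases h with h | ⟨h, h3⟩
      · exact Or.inl (by rw [h, Bool.true_or])
      · exact (List.mem_cons.1 h).imp (fun e => by rw [e, Nat.testBit_two_pow_self, Bool.or_true]) fun h => ⟨h, h3⟩

/-- the list of the neighbourhoods -/
noncomputable def nbs (lk : ℕ → ℕ → ℕ) (B : List ℕ) (gs : Sq) (L0 L : List ℕ) : (List (ℕ × ℕ) → Bool) → Bool :=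
  List.rec (fun κ => κ []) (fun c _ ih κ => dec lk (fun f => frc (nbr lk B gs f L0 (nat_lit 0)) fun m =>
    ih fun l => κ ((c, m) :: l)) gs c idf) L

theorem nbs_spec (hB : M.Base B) {gs : Sq} (hg : GsIn M lk gs) (L0 L : List ℕ) : ∀ κ : List (ℕ × ℕ) → Bool,
    nbs lk B gs L0 L κ = true → ∃ l, κ l = true ∧ ∀ c ∈ L, ∃ m, (c, m) ∈ l ∧ ∀ e ∈ L0,
      evc M lk gs c * evc M lk gs e = evc M lk gs e * evc M lk gs c → m.testBit e = true := by
  induction L with
  | nil => exact fun κ h => ⟨[], h, fun _ k => absurd k List.not_mem_nil⟩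
  | cons a L ih =>
    intro κ h
    obtain ⟨f, h1, h2⟩ := dec_one (β := Bool) hg a
    have e : nbs lk B gs L0 (a :: L) κ = frc (nbr lk B gs f L0 0) fun m => nbs lk B gs L0 L fun l => κ ((a, m) :: l) := h2 _
    rw [e, frc_eq] at h
    obtain ⟨l, h3, h4⟩ := ih _ h
    refine ⟨_, h3, List.forall_mem_cons.2 ⟨⟨_, List.mem_cons_self, fun c k1 k2 => nbr_spec hB hg h1 L0 0 c (Or.inr ⟨k1, k2⟩)⟩,
      fun c hc => (h4 c hc).imp fun _ k => ⟨List.mem_cons_of_mem _ k.1, k.2⟩⟩⟩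

/-- the elements which `fg` conjugates into `R` -/
noncomputable def wm (lk : ℕ → ℕ → ℕ) (B : List ℕ) (R gs : Sq) (fg : ℕ → ℕ) (l : List ℕ) : ℕ → ℕ :=
  List.rec (fun m => m) (fun c _ ih m => frc (Nat.shiftRight c (nat_lit 4)) fun e => dec lk (fun f => dec lk (fun w =>
    cnd (cjB B fg f w) (frc (Nat.lor m (Nat.shiftLeft (nat_lit 1) e)) ih) (nat_lit 0)) R (Nat.land c (nat_lit 15)) idf)
      gs e idf) l

theorem wm_spec (hB : M.Base B) {R gs : Sq} (hR : GsIn M lk R) (hg : GsIn M lk gs) {g : G} {fg : ℕ → ℕ} (hf : M.Rf g fg)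
    (l : List ℕ) : ∀ m, (∀ c, m.testBit c = true → g * evc M lk gs c * g⁻¹ ∈ Mg M lk R) →
      ∀ c, (wm lk B R gs fg l m).testBit c = true → g * evc M lk gs c * g⁻¹ ∈ Mg M lk R := by
  induction l with
  | nil => exact fun _ h => h
  | cons a l ih =>
    intro m h
    obtain ⟨f, h1, h2⟩ := dec_one (β := ℕ) hg (a >>> 4)
    obtain ⟨w, h3, h4⟩ := dec_one (β := ℕ) hR (a &&& 15)
    have e : wm lk B R gs fg (a :: l) m = frc (a >>> 4) fun e => dec lk (fun f => dec lk (fun w =>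
      cnd (cjB B fg f w) (frc (m ||| (1 <<< e)) (wm lk B R gs fg l)) 0) R (a &&& 15) idf) gs e idf := rfl
    rw [e, frc_eq, h2, h4, frc_eq]
    cases k : cjB B fg f w
    · exact fun c hc => absurd hc (by simp [cnd_false])
    · refine ih _ fun c hc => ?_
      rw [Nat.testBit_or, Nat.one_shiftLeft, Bool.or_eq_true, Nat.testBit_two_pow, decide_eq_true_eq] at hc
      exact hc.elim (h c) fun e => e ▸ (cj_of hB hf h1 h3 k).symm ▸ evc_mem R _

/-- the list of the conjugates of `R` -/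
noncomputable def wms (lk : ℕ → ℕ → ℕ) (B E : List ℕ) (R gs : Sq) (H : List (ℕ × List ℕ)) : (List ℕ → Bool) → Bool :=
  List.rec (fun κ => κ []) (fun e _ ih κ => decF lk E (fun f => frc (wm lk B R gs f e.2 (nat_lit 0)) fun m =>
    ih fun l => κ (m :: l)) (nat_lit 200) e.1 idf) H

theorem wms_spec (hB : M.Base B) {E : List ℕ} (hE : AllIn M lk E) {R gs : Sq} (hR : GsIn M lk R) (hg : GsIn M lk gs)
    (H : List (ℕ × List ℕ)) : ∀ κ : List ℕ → Bool, wms lk B E R gs H κ = true →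
      ∃ l, κ l = true ∧ ∀ m ∈ l, ∃ g : G, ∀ c, m.testBit c = true → g * evc M lk gs c * g⁻¹ ∈ Mg M lk R := by
  induction H with
  | nil => exact fun κ h => ⟨[], h, fun _ k => absurd k List.not_mem_nil⟩
  | cons a H ih =>
    intro κ h
    obtain ⟨g, -, f, h1, h2⟩ := decF_spec hE.top (fun f => frc (wm lk B R gs f a.2 (nat_lit 0)) fun m =>
      wms lk B E R gs H fun l => κ (m :: l)) (nat_lit 200) a.1 1 idf (mem_top _) PM.rf_one
    replace h := h2.symm.trans h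
    rw [frc_eq] at h
    obtain ⟨l, h3, h4⟩ := ih _ h
    exact ⟨_, h3, List.forall_mem_cons.2 ⟨⟨g, wm_spec hB hR hg h1 _ _ fun c hc => absurd hc (by simp)⟩, h4⟩⟩

/-- inclusion -/
noncomputable def sb (m W : ℕ) : Bool := Nat.beq (Nat.land m W) m

/-- every clique inside `m` lies in a member of `Ws` -/
noncomputable def cov (NL : List (ℕ × ℕ)) (Ws : List ℕ) (d : ℕ) : ℕ → ℕ → Bool :=
  Nat.rec (fun _ m => anyL Ws (sb m)) (fun _ ih C m => cnd (anyL Ws (sb m)) true (anyL Ws fun W => cnd (sb C W)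
    (allL NL fun e => pr e fun c N => cnd (bt m c) (cnd (bt W c) true (frc (Nat.lor C (Nat.shiftLeft (nat_lit 1) c)) fun C' =>
      frc (Nat.land m N) fun m' => ih C' m')) true) false)) d

theorem cov_spec {NL : List (ℕ × ℕ)} {Ws : List ℕ} {P : ℕ → Prop}
    (hP : ∀ c, P c → ∃ N, (c, N) ∈ NL ∧ ∀ e, P e → N.testBit e = true) (d : ℕ) : ∀ C m, (∀ c, P c → m.testBit c = true) →
      cov NL Ws d C m = true → ∃ W ∈ Ws, ∀ c, P c → W.testBit c = true := by
  have key : ∀ m, (∀ c, P c → m.testBit c = true) → anyL Ws (sb m) = true → ∃ W ∈ Ws, ∀ c, P c → W.testBit c = true :=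
    fun m h1 h2 => (of_anyL h2).imp fun W k => ⟨k.1, fun c hc => by
      have h3 := h1 c hc
      rw [← (Nat.eq_of_beq_eq_true k.2 : m &&& W = m), Nat.testBit_and, Bool.and_eq_true] at h3
      exact h3.2⟩
  induction d with
  | zero => exact fun _ => key
  | succ d ih =>
    intro C m h1 h
    rcases cnd_or h with h | h
    · exact key m h1 h
    obtain ⟨W, h2, h⟩ := of_anyL h
    by_cases h3 : ∀ c, P c → W.testBit c = true
    · exact ⟨W, h2, h3⟩
    push Not at h3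
    obtain ⟨c, h3, h4⟩ := h3
    obtain ⟨N, h5, h6⟩ := hP c h3
    have h7 := of_allL (cnd_and h).2 _ h5
    rw [pr_eq, bt_eq, bt_eq, h1 c h3, Bool.eq_false_iff.2 h4, cnd_true, cnd_false, frc_eq, frc_eq] at h7
    exact ih _ _ (fun e he => (Nat.testBit_and m N e).trans (by rw [h1 e he, h6 e he]; rfl)) h7

/-- every subgroup is fixed by one of the permutations -/
noncomputable def subs (Pi : List (ℕ × ℕ)) : Bool :=
  allN 65536 fun m => cnd (cnd (Nat.blt m 2) false (allN 16 fun a => cnd (bt m a)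
    (allN (Nat.succ a) fun b => cnd (bt m b) (bt m (Nat.xor a b)) true) true))
      (anyL Pi fun e => allN 16 fun k => cnd (bt m k) (bt m (plk 4 15 e.2 k)) true) true

/-- the check -/
noncomputable def chk2 (lk : ℕ → ℕ → ℕ) (B L : List ℕ) (z : ℕ) (H : List (ℕ × List ℕ)) (Pi : List (ℕ × ℕ)) (E : List ℕ)
    (_ R gs : Sq) (_ : ℕ → ℕ) : Bool :=
  cnd (Nat.beq (prodO R) 16) (cnd (allN 16 fun a => dec lk (fun u => allN 16 fun b => dec lk (fun v => dec lk (fun w =>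
    eqB B (fun q => u (v q)) w) R (Nat.xor a b) idf) R b idf) R a idf)
    (cnd (allL Pi fun e => decF lk E (fun f => cnd (eqB B (itr f 60) idf) false (allN 16 fun k => dec lk (fun u =>
      dec lk (fun v => cjB B f u v) R (plk 4 15 e.2 k) idf) R k idf)) (nat_lit 200) e.1 idf)
      (nbs lk B gs L L fun NL => wms lk B E R gs H fun Ws =>
        cov NL Ws 2 (Nat.shiftLeft (nat_lit 1) z) (nbr lk B gs idf L (nat_lit 0))) false) false) false

theorem two_of (hT : M.Tab lk mk ver) (hB : M.Base B) {E0 : List ℕ} (hE : AllIn M lk E0) {d : Dt} (hp : d.p = 2)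
    (hN : ¬ 2 ^ (d.F + 1) ∣ Nat.card G) {H : List (ℕ × List ℕ)} {Pi : List (ℕ × ℕ)} (hs : subs Pi = true)
    (h : setup lk mk n B E0 d (chk2 lk B d.L d.z H Pi) = true) : Two G d.F := by
  classical
  obtain ⟨E, A, R, z, fz, hE, hg, hz, S, h⟩ := setup_spec hT hB hE (hp ▸ Nat.prime_two) h
  have hR : GsIn M lk R := fun g k => hg g (List.mem_append_right _ k)
  obtain ⟨h1, h⟩ := cnd_and h
  obtain ⟨h2, h⟩ := cnd_and h
  obtain ⟨h3, h⟩ := cnd_and h
  obtain ⟨NL, h, h4⟩ := nbs_spec hB hg _ _ _ h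
  obtain ⟨Ws, h, h5⟩ := wms_spec hB hE hR hg _ _ h
  have h6 := S.card
  have h7 := S.oz
  rw [hp] at h6 h7
  refine ⟨z, h7, h6 ▸ card_dvd_of_le S.cz, fun X k1 k2 k3 => ?_⟩
  have k4 : ∀ u ∈ closure X, ∀ x ∈ X, x * u = u * x := fun u hu =>
    mem_centralizer_iff.1 ((closure_le (centralizer X)).2 (fun y hy x hx => k3 x hx y hy) hu)
  have k5 : ∀ u ∈ closure X, u ^ 2 = 1 := fun u hu => by
    induction hu using closure_induction_left with
    | one => exact one_pow 2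
    | mul_left x hx u hu ih =>
      obtain ⟨c, hc⟩ := isConj_iff.1 (k2 x hx)
      rw [(show Commute x u from k4 u hu x hx).mul_pow, ih, ← hc, conj_pow, ← h7, pow_orderOf_eq_one]
      simp
    | inv_mul_cancel x hx u hu ih =>
      obtain ⟨c, hc⟩ := isConj_iff.1 (k2 x hx)
      rw [(show Commute x u from k4 u hu x hx).inv_left.mul_pow, ih, inv_pow, ← hc, conj_pow, ← h7, pow_orderOf_eq_one]
      simp
  obtain ⟨c, k6⟩ := conj_into Nat.prime_two h6 hN (X := closure X) fun u => ⟨1, Subtype.ext (k5 u u.2)⟩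
  obtain ⟨W, k7, k8⟩ := cov_spec (P := fun e => e ∈ d.L ∧ ∃ x ∈ X, c * x * c⁻¹ = evc M lk (A ++ R) e) (by
    rintro e ⟨l1, x, l2, l3⟩
    obtain ⟨N, l4, l5⟩ := h4 e l1
    refine ⟨N, l4, ?_⟩
    rintro e' ⟨l6, y, l7, l8⟩
    exact l5 e' l6 (by rw [← l3, ← l8, conj_mul, conj_mul, k3 x l2 y l7])) _ _ _
    (fun e he => nbr_spec hB hg PM.rf_one _ _ e (Or.inr ⟨he.1, by rw [one_mul, mul_one]⟩)) h
  obtain ⟨g, k9⟩ := h5 W k7
  have k10 : ∀ u ∈ closure X, ∃ k < 16, g * c * u * (g * c)⁻¹ = evc M lk R k := fun u hu => by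
    have l1 : closure X ≤ (Mg M lk R).comap (MulAut.conj (g * c)).toMonoidHom := (closure_le _).2 fun x hx => by
      obtain ⟨e, l2, l3⟩ := S.cov _ (k6 x (subset_closure hx)) ((k2 x hx).trans (isConj_iff.2 ⟨c, rfl⟩))
      have l4 := k9 e (k8 e ⟨l2, x, hx, l3⟩)
      rw [← l3] at l4
      show g * c * x * (g * c)⁻¹ ∈ Mg M lk R
      simpa only [mul_inv_rev, mul_assoc] using l4
    obtain ⟨k, l2, j, l3, l4⟩ := exists_evc (A := []) S.pc.right (l1 hu)
    exact ⟨k, Nat.eq_of_beq_eq_true h1 ▸ l2, l4.trans (mul_one _)⟩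
  generalize g * c = b at k10
  let m := Nat.ofBits fun k : Fin 16 => decide (b⁻¹ * evc M lk R k * b ∈ closure X)
  have k11 : ∀ k < 16, bt m k = true ↔ b⁻¹ * evc M lk R k * b ∈ closure X := fun k hk => by
    rw [bt_eq, Nat.testBit_ofBits_lt _ _ hk, decide_eq_true_eq]
  have k12 := of_allN hs m (Nat.ofBits_lt_two_pow _)
  rw [show cnd (Nat.blt m 2) false _ = true from ?_, cnd_true] at k12
  · obtain ⟨e, l1, l2⟩ := of_anyL k12
    obtain ⟨a, -, f, l3, l4⟩ := decF_spec hE.top (fun f => cnd (eqB B (itr f 60) idf) false (allN 16 fun k => dec lk (fun u =>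
      dec lk (fun v => cjB B f u v) R (plk 4 15 e.2 k) idf) R k idf)) (nat_lit 200) e.1 1 idf (mem_top _) PM.rf_one
    obtain ⟨l5, l6⟩ := cnd_not (l4.symm.trans (of_allL h3 e l1))
    refine ⟨_, bad_of hB l3 l5 b, fun u hu => ?_⟩
    obtain ⟨k, l7, l8⟩ := k10 u hu
    have l9 := of_allN l2 k l7
    rw [(k11 k l7).2 (by rw [← l8]; simpa [mul_assoc] using hu), cnd_true,
      k11 (plk 4 15 e.2 k) (Nat.lt_succ_of_le Nat.and_le_right)] at l9
    obtain ⟨v, l10, l11⟩ := dec_one (β := Bool) hR k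
    obtain ⟨w, l12, l13⟩ := dec_one (β := Bool) hR (plk 4 15 e.2 k)
    have l14 := of_allN l6 k l7
    rw [l11, l13] at l14
    rw [← cj_of hB l3 l10 l12 l14, ← l8] at l9
    simpa only [mul_inv_rev, inv_inv, mul_assoc] using l9
  · obtain ⟨x, k1⟩ := k1
    obtain ⟨k, l1, l2⟩ := k10 x (subset_closure k1)
    have l3 := (k11 k l1).2 (by rw [← l2]; simpa [mul_assoc] using subset_closure k1)
    have l4 : k ≠ 0 := fun e => by
      rw [e, evc_zero, conj_eq_one_iff] at l2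
      rw [(isConj_one_left.1 (l2 ▸ k2 x k1) : z = 1), orderOf_one] at h7
      cases h7
    rw [bt_eq] at l3
    rw [Bool.eq_false_iff.2 fun e => not_le.2 (Nat.blt_eq.mp e)
      ((Nat.le_self_pow l4 2).trans (Nat.ge_two_pow_of_testBit l3)), cnd_false]
    refine allN_of fun a ha => cnd_of fun l5 => allN_of fun e he => cnd_of fun l6 => ?_
    have l7 : e < 16 := by omega
    obtain ⟨u, l8, l9⟩ := dec_one (β := Bool) hR a
    obtain ⟨v, l10, l11⟩ := dec_one (β := Bool) hR e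
    obtain ⟨w, l12, l13⟩ := dec_one (β := Bool) hR (Nat.xor a e)
    have l14 := of_allN h2 a ha
    rw [l9] at l14
    replace l14 := of_allN l14 e l7
    rw [l11, l13] at l14
    rw [k11 (Nat.xor a e) (Nat.xor_lt_two_pow (n := 4) ha l7), ← hB.eq (l8.mul l10) l12 l14]
    simpa only [mul_assoc, mul_inv_cancel_left] using mul_mem ((k11 a ha).1 l5) ((k11 e l7).1 l6)

end Cfsg.Agent.N2.Sp2.Md
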